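import Cfsg.Prelude.Def_Classical
import Cfsg.Agent.Lib.SpectrumSp4.SpSpectrum
import Cfsg.Agent.Lib.Fixity.PSLTwoSpectrum
import Mathlib.FieldTheory.Finite.GaloisField

/-!
An element of order sixty five in `PSL₂(64)`, `PSp₄(8)`, `PSL₄(8)`, `PSU₄(8)` and `PSp₆(8)`.
-/

set_option autoImplicit false
set_option linter.unusedSectionVars false

open Matrix
open scoped MatrixGroups

namespace CfsgLib.E7Two

theorem charP_two {F : Type*} [Field F] [Fintype F] {k : ℕ} (hF : Fintype.card F = 2 ^ k) : CharP F 2 :=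
  charP_of_card_eq_prime_pow (p := 2) (f := k) hF

/-- A power of an element of order a multiple of sixty five has that order. -/
theorem exists_of_dvd {G : Type*} [Group G] [Finite G] {x : G} (h : 65 ∣ orderOf x) :
    ∃ y : G, orderOf y = 65 :=
  ⟨x ^ (orderOf x / 65), orderOf_pow_orderOf_div (orderOf_pos x).ne' h⟩

/-- An element that a homomorphism to a quotient does not shorten. -/
theorem exists_sixtyfive_quot {S G : Type*} [Group S] [Group G] [Finite G] {N : Subgroup G} [N.Normal]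
    (f : S →* G) {x : S} (hx : 65 ∣ orderOf x) (hker : ∀ k : ℕ, f (x ^ k) ∈ N → x ^ k = 1) :
    ∃ y : G ⧸ N, orderOf y = 65 := by
  refine exists_of_dvd (x := (QuotientGroup.mk (f x) : G ⧸ N)) (hx.trans (orderOf_dvd_of_pow_eq_one ?_))
  refine hker _ ?_
  rw [map_pow, ← QuotientGroup.eq_one_iff, QuotientGroup.mk_pow, pow_orderOf_eq_one]

variable (F : Type*) [Field F] [Fintype F]

theorem exists_psl_two (h : Fintype.card F = 64) :
    ∃ y : Matrix.ProjectiveSpecialLinearGroup (Fin 2) F, orderOf y = 65 := by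
  haveI : CharP F 2 := charP_two (k := 6) (by rw [h]; norm_num)
  have hz : Fixity.PSLTwoSpectrum.zd F = 1 := by
    rw [Fixity.PSLTwoSpectrum.zd, Subgroup.card_eq_one, eq_bot_iff]
    intro g hg
    rw [Matrix.SpecialLinearGroup.mem_center_iff] at hg
    obtain ⟨c, hc, hg⟩ := hg
    rw [Fintype.card_fin] at hc
    have hc1 : c = 1 := by
      have : (c - 1) ^ 2 = 0 := by rw [sub_sq, hc, mul_one, CharTwo.two_eq_zero]; simp [CharTwo.add_self_eq_zero]
      simpa [sub_eq_zero] using pow_eq_zero_iff (two_ne_zero) |>.1 this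
    rw [Subgroup.mem_bot]
    exact Subtype.ext (by rw [← hg, hc1, map_one]; rfl)
  obtain ⟨x, hx⟩ := Fixity.PSLTwoSpectrum.exists_orderOf_torus (F := F) (e := 65)
    (Or.inr (by rw [Nat.card_eq_fintype_card, h])) (by norm_num)
  exact ⟨x, by rw [hx, hz, Nat.div_one]⟩

theorem exists_sp_four (h : Fintype.card F = 8) :
    ∃ A : Matrix.symplecticGroup (Fin 2) F, 65 ∣ orderOf A := by
  haveI : CharP F 2 := charP_two (k := 3) (by rw [h]; norm_num)
  have hmem : 65 ∈ Set.range (orderOf : Cfsg.PSp 2 F → ℕ) := by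
    rw [SpectrumSp4.range_orderOf_PSp (F := F) 2, h]
    exact ⟨65, Or.inl (by norm_num [SpectrumSp4.half]), dvd_rfl⟩
  obtain ⟨y, hy⟩ := hmem
  obtain ⟨A, rfl⟩ := QuotientGroup.mk_surjective y
  refine ⟨A, hy ▸ orderOf_dvd_of_pow_eq_one ?_⟩
  rw [← QuotientGroup.mk_pow, pow_orderOf_eq_one, QuotientGroup.mk_one]

theorem scalar_four {c : F} [CharP F 2] (h : c ^ 4 = 1) : c = 1 :=
  iterateFrobenius_inj F 2 2 (by simpa [iterateFrobenius_def] using h)

/-- The symplectic group inside the special linear group. -/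
noncomputable def toSL : Matrix.symplecticGroup (Fin 2) F →* SL(4, F) where
  toFun A := ⟨Matrix.reindex finSumFinEquiv finSumFinEquiv (A : Matrix (Fin 2 ⊕ Fin 2) (Fin 2 ⊕ Fin 2) F), by
    rw [Matrix.det_reindex_self]; exact SymplecticGroup.det_eq_one A.2⟩
  map_one' := by ext i j; simp [Matrix.one_apply]
  map_mul' A B := Subtype.ext (by
    show _ = _ * _
    simp only [Matrix.reindex_apply, Submonoid.coe_mul, Matrix.submatrix_mul_equiv])

theorem exists_psl_four (h : Fintype.card F = 8) :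
    ∃ y : Matrix.ProjectiveSpecialLinearGroup (Fin 4) F, orderOf y = 65 := by
  haveI : CharP F 2 := charP_two (k := 3) (by rw [h]; norm_num)
  obtain ⟨A, hA⟩ := exists_sp_four F h
  refine exists_sixtyfive_quot (toSL F) hA fun k hk => ?_
  rw [Matrix.SpecialLinearGroup.mem_center_iff] at hk
  obtain ⟨c, hc, e⟩ := hk
  rw [Fintype.card_fin] at hc
  rw [scalar_four F hc, map_one] at e
  refine Subtype.ext (Matrix.ext fun i j => ?_)
  have := congrFun (congrFun e (finSumFinEquiv i)) (finSumFinEquiv j)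
  have e2 : (((toSL F) (A ^ k) : SL(4, F)) : Matrix (Fin 4) (Fin 4) F) (finSumFinEquiv i) (finSumFinEquiv j) =
      ((A ^ k : Matrix.symplecticGroup (Fin 2) F) : Matrix (Fin 2 ⊕ Fin 2) (Fin 2 ⊕ Fin 2) F) i j := by
    show Matrix.reindex _ _ _ _ _ = _
    rw [Matrix.reindex_apply, Matrix.submatrix_apply, Equiv.symm_apply_apply, Equiv.symm_apply_apply]
  rw [← e2, ← this]
  simp [Matrix.one_apply]

theorem exists_psp_four (h : Fintype.card F = 8) : ∃ y : Cfsg.PSp 2 F, orderOf y = 65 := by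
  haveI : CharP F 2 := charP_two (k := 3) (by rw [h]; norm_num)
  have hmem : 65 ∈ Set.range (orderOf : Cfsg.PSp 2 F → ℕ) := by
    rw [SpectrumSp4.range_orderOf_PSp (F := F) 2, h]
    exact ⟨65, Or.inl (by norm_num [SpectrumSp4.half]), dvd_rfl⟩
  exact hmem

/-- The first two of three hyperbolic pairs. -/
def emb₂₃ : Fin 2 ⊕ Fin 2 → Fin 3 ⊕ Fin 3 := Sum.map Fin.castSucc Fin.castSucc

/-- Adding a hyperbolic pair. -/
def extMat (A : Matrix (Fin 2 ⊕ Fin 2) (Fin 2 ⊕ Fin 2) F) : Matrix (Fin 3 ⊕ Fin 3) (Fin 3 ⊕ Fin 3) F :=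
  Matrix.of fun i j =>
    match i, j with
    | Sum.inl i, Sum.inl j => if hi : (i : ℕ) < 2 then (if hj : (j : ℕ) < 2 then A (.inl ⟨i, hi⟩) (.inl ⟨j, hj⟩) else 0) else (if i = j then 1 else 0)
    | Sum.inl i, Sum.inr j => if hi : (i : ℕ) < 2 then (if hj : (j : ℕ) < 2 then A (.inl ⟨i, hi⟩) (.inr ⟨j, hj⟩) else 0) else 0
    | Sum.inr i, Sum.inl j => if hi : (i : ℕ) < 2 then (if hj : (j : ℕ) < 2 then A (.inr ⟨i, hi⟩) (.inl ⟨j, hj⟩) else 0) else 0
    | Sum.inr i, Sum.inr j => if hi : (i : ℕ) < 2 then (if hj : (j : ℕ) < 2 then A (.inr ⟨i, hi⟩) (.inr ⟨j, hj⟩) else 0) else (if i = j then 1 else 0)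

theorem extMat_one : extMat F 1 = 1 := by
  ext (i | i) (j | j) <;> fin_cases i <;> fin_cases j <;> simp [extMat, Matrix.one_apply]

theorem extMat_mul (A B : Matrix (Fin 2 ⊕ Fin 2) (Fin 2 ⊕ Fin 2) F) :
    extMat F (A * B) = extMat F A * extMat F B := by
  ext (i | i) (j | j) <;> fin_cases i <;> fin_cases j <;>
    simp [extMat, Matrix.mul_apply, Fintype.sum_sum_type, Fin.sum_univ_two, Fin.sum_univ_three]

theorem extMat_transpose (A : Matrix (Fin 2 ⊕ Fin 2) (Fin 2 ⊕ Fin 2) F) :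
    extMat F Aᵀ = (extMat F A)ᵀ := by
  ext (i | i) (j | j) <;> fin_cases i <;> fin_cases j <;> simp [extMat]

/-- Adding a hyperbolic pair, on the group. -/
noncomputable def extHom : Matrix.symplecticGroup (Fin 2) F →* Matrix.symplecticGroup (Fin 3) F where
  toFun A := ⟨extMat F A, by
    have h := SymplecticGroup.mem_iff.1 A.2
    rw [SymplecticGroup.mem_iff]
    ext (i | i) (j | j) <;> fin_cases i <;> fin_cases j <;>
      have h00 := congrFun (congrFun h (Sum.inl 0)) <;>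
      have h01 := congrFun (congrFun h (Sum.inl 1)) <;>
      have h10 := congrFun (congrFun h (Sum.inr 0)) <;>
      have h11 := congrFun (congrFun h (Sum.inr 1)) <;>
      simp [extMat, Matrix.J, Matrix.mul_apply, Fintype.sum_sum_type, Fin.sum_univ_two, Fin.sum_univ_three,
        Matrix.one_apply] at h00 h01 h10 h11 ⊢ <;>
      simp [h00, h01, h10, h11]⟩
  map_one' := Subtype.ext (extMat_one F)
  map_mul' A B := Subtype.ext (extMat_mul F _ _)

/-- Exchange of a pair with the added one. -/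
def swapPair (a : Fin 3) : Fin 3 ⊕ Fin 3 ≃ Fin 3 ⊕ Fin 3 :=
  Equiv.sumCongr (Equiv.swap a 2) (Equiv.swap a 2)

theorem swapPair_mem (a : Fin 3) :
    ((swapPair a).toPEquiv.toMatrix : Matrix _ _ F) ∈ Matrix.symplecticGroup (Fin 3) F := by
  rw [SymplecticGroup.mem_iff]
  fin_cases a <;> ext (i | i) (j | j) <;> fin_cases i <;> fin_cases j <;>
    simp [swapPair, Matrix.J, Matrix.mul_apply, Fintype.sum_sum_type, Fin.sum_univ_three, PEquiv.toMatrix_apply,
      Equiv.swap_apply_def, Matrix.one_apply]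

theorem exists_psp_six (h : Fintype.card F = 8) : ∃ y : Cfsg.PSp 3 F, orderOf y = 65 := by
  obtain ⟨A, hA⟩ := exists_sp_four F h
  refine exists_sixtyfive_quot (extHom F) hA fun k hk => ?_
  set B := A ^ k with hB
  have key : ∀ (a : Fin 3) i j, (extMat F (B : Matrix _ _ F)) (swapPair a i) (swapPair a j) =
      extMat F (B : Matrix _ _ F) i j := by
    intro a i j
    have e := congrArg (fun M : Matrix.symplecticGroup (Fin 3) F => (M : Matrix _ _ F) i (swapPair a j))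
      (Subgroup.mem_center_iff.1 hk ⟨_, swapPair_mem F a⟩)
    simp only [Submonoid.coe_mul, PEquiv.toMatrix_toPEquiv_mul, PEquiv.mul_toMatrix_toPEquiv,
      Matrix.submatrix_apply, id_eq] at e
    exact e.trans (by simp; rfl)
  refine Subtype.ext ?_
  ext (i | i) (j | j) <;> fin_cases i <;> fin_cases j
  all_goals
    first
    | (have e := key 0 (Sum.inl 0) (Sum.inl 0); simp [extMat, swapPair] at e ⊢; rw [← e]; done)
    | (have e := key 1 (Sum.inl 1) (Sum.inl 1); simp [extMat, swapPair] at e ⊢; rw [← e]; done)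
    | (have e := key 0 (Sum.inr 0) (Sum.inr 0); simp [extMat, swapPair] at e ⊢; rw [← e]; done)
    | (have e := key 1 (Sum.inr 1) (Sum.inr 1); simp [extMat, swapPair] at e ⊢; rw [← e]; done)
    | (have e := key 0 (Sum.inl 0) (Sum.inl 1); simp [extMat, swapPair, Equiv.swap_apply_def] at e ⊢; rw [← e]; done)
    | (have e := key 0 (Sum.inl 1) (Sum.inl 0); simp [extMat, swapPair, Equiv.swap_apply_def] at e ⊢; rw [← e]; done)
    | (have e := key 0 (Sum.inr 0) (Sum.inr 1); simp [extMat, swapPair, Equiv.swap_apply_def] at e ⊢; rw [← e]; done)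
    | (have e := key 0 (Sum.inr 1) (Sum.inr 0); simp [extMat, swapPair, Equiv.swap_apply_def] at e ⊢; rw [← e]; done)
    | (have e := key 0 (Sum.inl 0) (Sum.inr 0); simp [extMat, swapPair, Equiv.swap_apply_def] at e ⊢; rw [← e]; done)
    | (have e := key 0 (Sum.inl 0) (Sum.inr 1); simp [extMat, swapPair, Equiv.swap_apply_def] at e ⊢; rw [← e]; done)
    | (have e := key 0 (Sum.inl 1) (Sum.inr 0); simp [extMat, swapPair, Equiv.swap_apply_def] at e ⊢; rw [← e]; done)
    | (have e := key 1 (Sum.inl 1) (Sum.inr 1); simp [extMat, swapPair, Equiv.swap_apply_def] at e ⊢; rw [← e]; done)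
    | (have e := key 0 (Sum.inr 0) (Sum.inl 0); simp [extMat, swapPair, Equiv.swap_apply_def] at e ⊢; rw [← e]; done)
    | (have e := key 0 (Sum.inr 0) (Sum.inl 1); simp [extMat, swapPair, Equiv.swap_apply_def] at e ⊢; rw [← e]; done)
    | (have e := key 0 (Sum.inr 1) (Sum.inl 0); simp [extMat, swapPair, Equiv.swap_apply_def] at e ⊢; rw [← e]; done)
    | (have e := key 1 (Sum.inr 1) (Sum.inl 1); simp [extMat, swapPair, Equiv.swap_apply_def] at e ⊢; rw [← e]; done)

theorem exists_psu_four (h : Fintype.card F = 64) : ∃ y : Cfsg.PSU 4 F 8, orderOf y = 65 := by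
  classical
  haveI : CharP F 2 := charP_two (k := 6) (by rw [h]; norm_num)
  letI : Algebra (ZMod 2) F := ZMod.algebra F 2
  let K := GaloisField 2 3
  letI : Fintype K := Fintype.ofFinite K
  have hK : Fintype.card K = 8 := by
    rw [← Nat.card_eq_fintype_card, GaloisField.card 2 3 (by norm_num)]; norm_num
  obtain ⟨A, hA⟩ := exists_sp_four K hK
  have hfin : Module.finrank (ZMod 2) F = 6 := by
    have e := Module.natCard_eq_pow_finrank (K := ZMod 2) (V := F)
    rw [Nat.card_eq_fintype_card, h, Nat.card_zmod] at e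
    exact Nat.pow_right_injective le_rfl (e.symm.trans (by norm_num))
  obtain ⟨φ⟩ := FiniteField.nonempty_algHom_of_finrank_dvd (F := ZMod 2) (K := K) (L := F)
    (by rw [hfin, GaloisField.finrank 2 (by norm_num)]; norm_num)
  obtain ⟨g, hg⟩ := IsCyclic.exists_ofOrder_eq_natCard (α := Fˣ)
  rw [Nat.card_eq_fintype_card, Fintype.card_units, h] at hg
  set w : F := ((g ^ 21 : Fˣ) : F) with hw
  have hw3 : w ^ 3 = 1 := by
    rw [hw, ← Units.val_pow_eq_pow_val, ← pow_mul, show (21 * 3 : ℕ) = 64 - 1 from rfl, ← hg, pow_orderOf_eq_one,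
      Units.val_one]
  have hw1 : w ≠ 1 := fun e => by
    have := orderOf_dvd_of_pow_eq_one (show g ^ 21 = 1 from Units.ext e)
    rw [hg] at this
    norm_num at this
  have hww : w ^ 2 + w = 1 := by
    have e : (w - 1) * (w ^ 2 + w + 1) = 0 := by linear_combination hw3
    exact CharTwo.add_eq_zero.1 ((mul_eq_zero.1 e).resolve_left (sub_ne_zero.2 hw1))
  have hw8 : w ^ 8 = w ^ 2 := by linear_combination (w ^ 5 + w ^ 2) * hw3
  let P : Matrix (Fin 2 ⊕ Fin 2) (Fin 2 ⊕ Fin 2) F := Matrix.fromBlocks 1 1 (w • 1) (w ^ 2 • 1)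
  let Q : Matrix (Fin 2 ⊕ Fin 2) (Fin 2 ⊕ Fin 2) F := Matrix.fromBlocks (w ^ 2 • 1) 1 (w • 1) 1
  let σ : F →+* F := iterateFrobenius F 2 3
  have hσ : ∀ x, σ x = x ^ 8 := fun x => iterateFrobenius_def ..
  have hPQ : P * Q = 1 := by
    simp only [P, Q, Matrix.fromBlocks_multiply, Matrix.one_mul, Matrix.mul_one, Matrix.smul_mul,
      Matrix.mul_smul, smul_smul, ← add_smul]
    rw [← Matrix.fromBlocks_one]
    congr 1 <;> simp [← sq, ← pow_succ, ← pow_succ', hw3, CharTwo.add_self_eq_zero, hww, add_comm w,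
      show w * w ^ 2 = 1 by rw [← pow_succ', hw3], show w ^ 2 * w = 1 by rw [← pow_succ, hw3]]
  have hQP : Q * P = 1 := mul_eq_one_comm.1 hPQ
  have hQ : Qᵀ * Q.map σ = Matrix.J (Fin 2) F := by
    simp only [Q, Matrix.fromBlocks_transpose, Matrix.fromBlocks_map, Matrix.fromBlocks_multiply, Matrix.J]
    congr 1 <;> ext i j <;> fin_cases i <;> fin_cases j <;>
      simp [hσ, Matrix.mul_apply, Fin.sum_univ_two, CharTwo.neg_eq, mul_pow, hw8] <;>
      grind [CharTwo.two_eq_zero]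
  have hP : Pᵀ * Matrix.J (Fin 2) F * P.map σ = 1 := by
    simp only [P, Matrix.fromBlocks_transpose, Matrix.fromBlocks_map, Matrix.fromBlocks_multiply, Matrix.J]
    rw [← Matrix.fromBlocks_one]
    congr 1 <;> ext i j <;> fin_cases i <;> fin_cases j <;>
      simp [hσ, Matrix.mul_apply, Fin.sum_univ_two, CharTwo.neg_eq, mul_pow, hw8] <;>
      grind [CharTwo.two_eq_zero]
  let conj : Matrix.symplecticGroup (Fin 2) K →* SL(4, F) :=
    { toFun := fun B => ⟨Matrix.reindex finSumFinEquiv finSumFinEquiv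
          (Q * (B : Matrix (Fin 2 ⊕ Fin 2) (Fin 2 ⊕ Fin 2) K).map φ * P), by
        rw [Matrix.det_reindex_self, Matrix.det_mul, Matrix.det_mul, mul_right_comm, ← Matrix.det_mul, hQP,
          Matrix.det_one, one_mul]
        show ((φ : K →+* F).mapMatrix (B : Matrix (Fin 2 ⊕ Fin 2) (Fin 2 ⊕ Fin 2) K)).det = 1
        rw [← RingHom.map_det, SymplecticGroup.det_eq_one B.2, map_one]⟩
      map_one' := by ext i j; simp [Matrix.map_one, hQP, Matrix.one_apply]
      map_mul' := fun B C => Subtype.ext (by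
        show _ = _ * _
        simp only [Matrix.reindex_apply, Matrix.submatrix_mul_equiv, Submonoid.coe_mul, Matrix.map_mul]
        congr 1
        simp only [Matrix.mul_assoc]
        rw [← Matrix.mul_assoc P Q, hPQ, Matrix.one_mul]) }
  have hfix : ∀ x : K, σ (φ x) = φ x := by
    intro x
    rw [hσ, ← map_pow, ← hK, FiniteField.pow_card]
  have hmem : ∀ B, conj B ∈ Cfsg.SU 4 F 8 := by
    intro B u v
    set M := Q * (B : Matrix (Fin 2 ⊕ Fin 2) (Fin 2 ⊕ Fin 2) K).map φ * P with hM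
    have hB : ((B : Matrix (Fin 2 ⊕ Fin 2) (Fin 2 ⊕ Fin 2) K).map φ)ᵀ * Matrix.J (Fin 2) F * (B : Matrix (Fin 2 ⊕ Fin 2) (Fin 2 ⊕ Fin 2) K).map φ = Matrix.J (Fin 2) F := by
      have e := congrArg (fun M => Matrix.map M φ) (SymplecticGroup.mem_iff'.1 B.2)
      have hJ : (Matrix.J (Fin 2) K).map φ = Matrix.J (Fin 2) F := by
        ext (i | i) (j | j) <;> simp [Matrix.J, Matrix.one_apply, apply_ite φ]
      simpa [Matrix.map_mul, Matrix.transpose_map, hJ] using e
    have hMM : Mᵀ * M.map σ = 1 := by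
      have e : ((B : Matrix (Fin 2 ⊕ Fin 2) (Fin 2 ⊕ Fin 2) K).map φ).map σ = (B : Matrix (Fin 2 ⊕ Fin 2) (Fin 2 ⊕ Fin 2) K).map φ := by
        ext i j; exact hfix _
      rw [hM, Matrix.map_mul, Matrix.map_mul, e, Matrix.transpose_mul, Matrix.transpose_mul]
      calc Pᵀ * (((B : Matrix (Fin 2 ⊕ Fin 2) (Fin 2 ⊕ Fin 2) K).map φ)ᵀ * Qᵀ) * (Q.map σ * (B : Matrix (Fin 2 ⊕ Fin 2) (Fin 2 ⊕ Fin 2) K).map φ * P.map σ)
          = Pᵀ * (((B : Matrix (Fin 2 ⊕ Fin 2) (Fin 2 ⊕ Fin 2) K).map φ)ᵀ * (Qᵀ * Q.map σ) * (B : Matrix (Fin 2 ⊕ Fin 2) (Fin 2 ⊕ Fin 2) K).map φ) * P.map σ := by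
            simp only [Matrix.mul_assoc]
        _ = 1 := by rw [hQ, hB, hP]
    set M' := Matrix.reindex finSumFinEquiv finSumFinEquiv M with hM'
    have hMM' : M'ᵀ * M'.map σ = 1 := by
      rw [hM', Matrix.reindex_apply, Matrix.transpose_submatrix, ← Matrix.submatrix_map,
        Matrix.submatrix_mul_equiv, hMM, Matrix.submatrix_one_equiv]
    show ∑ i, (M' *ᵥ u) i * (M' *ᵥ v) i ^ 8 = ∑ i, u i * v i ^ 8
    simp only [← hσ]
    have e : (fun i => σ ((M' *ᵥ v) i)) = M'.map σ *ᵥ fun i => σ (v i) := by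
      funext i; exact RingHom.map_mulVec σ M' v i
    have h1 : (M'.map σ)ᵀ * M' = 1 := by
      rw [← Matrix.transpose_one, ← hMM', Matrix.transpose_mul, Matrix.transpose_transpose]
    calc ∑ i, (M' *ᵥ u) i * σ ((M' *ᵥ v) i) = (M' *ᵥ u) ⬝ᵥ (M'.map σ *ᵥ fun i => σ (v i)) := by rw [← e]; rfl
      _ = _ := by
        rw [Matrix.dotProduct_mulVec, ← Matrix.mulVec_transpose, Matrix.mulVec_mulVec, h1, Matrix.one_mulVec]
        rfl
  refine exists_sixtyfive_quot (conj.codRestrict _ hmem) hA fun k hk => ?_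
  set z := conj (A ^ k) with hz
  have hperm : ∀ τ : Equiv.Perm (Fin 4), ∀ i j, (z : Matrix (Fin 4) (Fin 4) F) (τ i) (τ j) = (z : Matrix (Fin 4) (Fin 4) F) i j := by
    intro τ i j
    let Tm : SL(4, F) := ⟨(τ.toPEquiv.toMatrix : Matrix (Fin 4) (Fin 4) F), by
      have : ((τ.toPEquiv.toMatrix : Matrix (Fin 4) (Fin 4) F)).det = ((Equiv.Perm.sign τ : ℤ) : F) :=
        Matrix.det_permutation τ
      rw [this]
      rcases Int.units_eq_one_or (Equiv.Perm.sign τ) with e | e <;> simp [e, CharTwo.neg_eq]⟩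
    have hT : Tm ∈ Cfsg.SU 4 F 8 := by
      intro u v
      show ∑ i, ((τ.toPEquiv.toMatrix : Matrix (Fin 4) (Fin 4) F) *ᵥ u) i *
        ((τ.toPEquiv.toMatrix : Matrix (Fin 4) (Fin 4) F) *ᵥ v) i ^ 8 = ∑ i, u i * v i ^ 8
      simp only [PEquiv.toMatrix_toPEquiv_mulVec, Function.comp_apply]
      exact Equiv.sum_comp τ fun i => u i * v i ^ 8
    have e := congrArg (fun M : Cfsg.SU 4 F 8 => ((M : SL(4, F)) : Matrix (Fin 4) (Fin 4) F) i (τ j))
      (Subgroup.mem_center_iff.1 hk ⟨Tm, hT⟩)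
    simp only [Subgroup.coe_mul, Matrix.SpecialLinearGroup.coe_mul] at e
    change ((τ.toPEquiv.toMatrix : Matrix (Fin 4) (Fin 4) F) * (z : Matrix (Fin 4) (Fin 4) F)) i (τ j) =
      ((z : Matrix (Fin 4) (Fin 4) F) * (τ.toPEquiv.toMatrix : Matrix (Fin 4) (Fin 4) F)) i (τ j) at e
    simp only [PEquiv.toMatrix_toPEquiv_mul, PEquiv.mul_toMatrix_toPEquiv, Matrix.submatrix_apply, id_eq,
      Equiv.symm_apply_apply] at e
    exact e
  set lam : F := ((g ^ 7 : Fˣ) : F) with hlam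
  have hl9 : lam ^ 9 = 1 := by
    rw [hlam, ← Units.val_pow_eq_pow_val, ← pow_mul, show (7 * 9 : ℕ) = 64 - 1 from rfl, ← hg, pow_orderOf_eq_one,
      Units.val_one]
  have hl1 : lam ≠ 1 := fun e => by
    have := orderOf_dvd_of_pow_eq_one (show g ^ 7 = 1 from Units.ext e)
    rw [hg] at this
    norm_num at this
  let Dm : SL(4, F) := ⟨Matrix.diagonal ![lam, lam ^ 8, 1, 1], by
    rw [Matrix.det_diagonal]; simp [Fin.prod_univ_four, ← pow_succ', hl9]⟩
  have hD : Dm ∈ Cfsg.SU 4 F 8 := by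
    intro u v
    show ∑ i, (Matrix.diagonal ![lam, lam ^ 8, 1, 1] *ᵥ u) i * (Matrix.diagonal ![lam, lam ^ 8, 1, 1] *ᵥ v) i ^ 8 =
      ∑ i, u i * v i ^ 8
    simp only [Matrix.mulVec_diagonal, Fin.sum_univ_four]
    simp only [Matrix.cons_val_zero, Matrix.cons_val_one, Matrix.cons_val, one_mul, mul_pow]
    linear_combination (u 0 * v 0 ^ 8 + u 1 * v 1 ^ 8) * hl9 +
      (u 1 * v 1 ^ 8 * (lam ^ 63 + lam ^ 54 + lam ^ 45 + lam ^ 36 + lam ^ 27 + lam ^ 18 + lam ^ 9)) * hl9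
  have h20 : (z : Matrix (Fin 4) (Fin 4) F) 2 0 = 0 := by
    have e := congrArg (fun M : Cfsg.SU 4 F 8 => ((M : SL(4, F)) : Matrix (Fin 4) (Fin 4) F) 2 0)
      (Subgroup.mem_center_iff.1 hk ⟨Dm, hD⟩)
    simp only [Subgroup.coe_mul, Matrix.SpecialLinearGroup.coe_mul] at e
    change (Matrix.diagonal ![lam, lam ^ 8, 1, 1] * (z : Matrix (Fin 4) (Fin 4) F)) 2 0 =
      ((z : Matrix (Fin 4) (Fin 4) F) * Matrix.diagonal ![lam, lam ^ 8, 1, 1]) 2 0 at e
    rw [Matrix.diagonal_mul, Matrix.mul_diagonal] at e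
    simp only [Matrix.cons_val_zero, Matrix.cons_val, one_mul] at e
    by_contra h0
    exact hl1 (mul_left_cancel₀ h0 (by rw [mul_one]; exact e.symm))
  have hscal : (z : Matrix (Fin 4) (Fin 4) F) = Matrix.scalar _ ((z : Matrix (Fin 4) (Fin 4) F) 0 0) := by
    ext i j
    rw [Matrix.scalar_apply, Matrix.diagonal_apply]
    split_ifs with e
    · subst e
      have := hperm (Equiv.swap 0 i) 0 0
      rwa [Equiv.swap_apply_left] at this
    · obtain ⟨τ, h1, h2⟩ : ∃ τ : Equiv.Perm (Fin 4), τ 2 = i ∧ τ 0 = j := by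
        revert e; revert i j; decide
      rw [← h1, ← h2, hperm, h20]
  have hc : ((z : Matrix (Fin 4) (Fin 4) F) 0 0) ^ 4 = 1 := by
    have e := z.2
    rw [show (z.1 : Matrix (Fin 4) (Fin 4) F) = (z : Matrix (Fin 4) (Fin 4) F) from rfl, hscal] at e
    simpa [Matrix.scalar_apply, Matrix.det_diagonal] using e
  have hz1 : (z : Matrix (Fin 4) (Fin 4) F) = 1 := by rw [hscal, scalar_four F hc, map_one]
  have hinj : Q * ((A ^ k : Matrix.symplecticGroup (Fin 2) K) : Matrix (Fin 2 ⊕ Fin 2) (Fin 2 ⊕ Fin 2) K).map φ * P = 1 := by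
    ext i j
    have e := congrFun (congrFun hz1 (finSumFinEquiv i)) (finSumFinEquiv j)
    have e2 : (z : Matrix (Fin 4) (Fin 4) F) (finSumFinEquiv i) (finSumFinEquiv j) =
        (Q * ((A ^ k : Matrix.symplecticGroup (Fin 2) K) : Matrix (Fin 2 ⊕ Fin 2) (Fin 2 ⊕ Fin 2) K).map φ * P) i j := by
      show Matrix.reindex _ _ _ _ _ = _
      rw [Matrix.reindex_apply, Matrix.submatrix_apply, Equiv.symm_apply_apply, Equiv.symm_apply_apply]
    rw [← e2, e]
    simp [Matrix.one_apply]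
  have hA1 : ((A ^ k : Matrix.symplecticGroup (Fin 2) K) : Matrix (Fin 2 ⊕ Fin 2) (Fin 2 ⊕ Fin 2) K).map φ = 1 := by
    calc _ = P * (Q * ((A ^ k : Matrix.symplecticGroup (Fin 2) K) : Matrix (Fin 2 ⊕ Fin 2) (Fin 2 ⊕ Fin 2) K).map φ * P) * Q := by
          simp only [Matrix.mul_assoc]
          rw [hPQ, Matrix.mul_one, ← Matrix.mul_assoc, hPQ, Matrix.one_mul]
      _ = 1 := by rw [hinj, Matrix.mul_one, hPQ]
  refine Subtype.ext (Matrix.map_injective φ.injective ?_)
  exact hA1.trans (Matrix.map_one φ (map_zero φ) (map_one φ)).symm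

end CfsgLib.E7Two
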