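import Cfsg.Agent.Lib.E7Two.Count
import Cfsg.Agent.Lib.Chevalley.TwistLang
import Mathlib.FieldTheory.Finite.Extension
import Mathlib.Tactic.NormNum.Prime

/-!
`E₇(2)` has no element of order sixty five: the part of order thirteen lies in a torus class whose centraliser
over a splitting field has the torus as a subgroup of index prime to five, and no Weyl element doubles the exponents
of both parts.
-/

set_option autoImplicit false
set_option linter.unusedSectionVars false
set_option maxRecDepth 100000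

open Matrix Cfsg.Lie CfsgLib.Chevalley

namespace CfsgLib.E7Two

open CfsgLib.KnownSimple.ChevalleyLang (Omega exists_lang exists_preimage)

/-- A monomial permutation carries the values of torus elements that an element intertwines. -/
theorem exists_perm_of_intertwine {D : ChevalleyDatum} {A : Aux} (h : Full D A) {K : Type*} [Field K]
    {m : GL D.Idx K} (hm : m ∈ D.group K) :
    ∃ n ∈ D.monomialSubgroup K, ∃ (σ : Equiv.Perm (Fin D.nroots)) (η : Fin D.nroots → K), Acts h.cert n σ η ∧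
      ∀ c c' : Fin D.rank → Kˣ, m * torusHom D K c = torusHom D K c' * m →
        ∀ s : Fin D.nroots, chi D (σ s) c' = chi D s c := by
  obtain ⟨u, hu, n, hn, σ, η, hA, v, hv, rfl⟩ := exists_canonical h hm
  refine ⟨n, hn, σ, η, hA, fun c c' he s => ?_⟩
  set d := torusHom D K c with hd
  set d' := torusHom D K c' with hd'
  have hdH : d ∈ D.diagonalSubgroup K := torus_mem_diagonal h c
  have hdH' : d' ∈ D.diagonalSubgroup K := torus_mem_diagonal h c'
  obtain ⟨η', hA'⟩ : ∃ η', Acts h.cert (d' * n * d⁻¹) σ η' := by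
    have := ((acts_torus h.cert c').mul hA).mul (acts_torus h.cert c⁻¹)
    rw [map_inv, ← hd, ← hd', mul_one, one_mul] at this
    exact ⟨_, this⟩
  have hn' : d' * n * d⁻¹ ∈ D.monomialSubgroup K :=
    mul_mem (mul_mem (diagonal_le_monomial hdH') hn) (inv_mem (diagonal_le_monomial hdH))
  obtain ⟨-, en, -⟩ := canonical_unique h (diagonal_conj_rootsU h _ d' hdH' u hu) hu hn' hn hA' hA
    (diagonal_conj_rootsU h _ d hdH v hv) hv
    (by rw [show d' * u * d'⁻¹ * (d' * n * d⁻¹) * (d * v * d⁻¹) = d' * (u * n * v) * d⁻¹ by group,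
      ← he, mul_inv_cancel_right])
  have he' := congrArg (fun g : GL D.Idx K => (g : Matrix D.Idx D.Idx K) (Sum.inr (σ s)) (Sum.inr s))
    (mul_inv_eq_iff_eq_mul.1 en)
  simp only [hd, hd', Units.val_mul, coe_torusHom, Matrix.diagonal_mul, Matrix.mul_diagonal, hA.col,
    if_true, Sum.elim_inr] at he'
  rw [mul_comm] at he'
  exact Units.ext (mul_left_cancel₀ (hA.ne_zero s) he')

theorem torusHom_injective_two {L : Type*} [Field L] [CharP L 2] :
    Function.Injective (torusHom chevE7 L) := by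
  intro c c' e
  have hchi : ∀ j : Fin chevE7.rank, chi chevE7 (chevE7.simple j) c = chi chevE7 (chevE7.simple j) c' := by
    intro j
    have hj : chevE7.simple j < chevE7.nroots := (fullE7.simple_pos j.isLt).1
    have e1 := congrArg (fun M : GL chevE7.Idx L => (M : Matrix chevE7.Idx chevE7.Idx L)
      (Sum.inr ⟨chevE7.simple j, hj⟩) (Sum.inr ⟨chevE7.simple j, hj⟩)) e
    simp only [coe_torusHom, Matrix.diagonal_apply_eq, Sum.elim_inr] at e1
    exact Units.ext e1
  have key : ∀ (c : Fin chevE7.rank → Lˣ) k,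
      c k ^ (2 : ℤ) = ∏ j : Fin chevE7.rank, chi chevE7 (chevE7.simple j) c ^ invTwo j k := by
    intro c k
    show c k ^ (2 : ℤ) = ∏ j : Fin chevE7.rank,
      (∏ i : Fin chevE7.rank, c i ^ chevE7.cartan i (chevE7.simple j)) ^ invTwo j k
    simp only [← Finset.prod_zpow, ← _root_.zpow_mul]
    rw [Finset.prod_comm]
    have h' : ∀ i : Fin chevE7.rank, (∏ j : Fin chevE7.rank, c i ^ (chevE7.cartan i (chevE7.simple j) * invTwo j k)) =
        c i ^ (if i = k then (2 : ℤ) else 0) := by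
      intro i
      rw [← invTwo_spec i k]
      generalize Finset.univ (α := Fin chevE7.rank) = S
      classical
      induction S using Finset.induction_on with
      | empty => simp
      | insert a S ha ih => rw [Finset.prod_insert ha, Finset.sum_insert ha, _root_.zpow_add, ih]; rfl
    simp only [h']
    rw [Finset.prod_eq_single k (fun i _ hi => by rw [if_neg hi, zpow_zero])
      (fun h0 => absurd (Finset.mem_univ k) h0), if_pos rfl]
  funext k
  have h2 : c k ^ (2 : ℤ) = c' k ^ (2 : ℤ) := by rw [key c k, key c' k]; simp only [hchi]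
  rw [show (2 : ℤ) = ((2 : ℕ) : ℤ) from rfl, zpow_natCast, zpow_natCast] at h2
  have h3 := congrArg Units.val h2
  simp only [Units.val_pow_eq_pow_val] at h3
  exact Units.ext (frobenius_inj L 2 (by simpa [frobenius_def] using h3))

theorem chi_map {L M : Type*} [Field L] [Field M] (f : L →+* M) (c : Fin chevE7.rank → Lˣ) (s : ℕ) :
    chi chevE7 s (fun k => Units.map (f : L →* M) (c k)) = Units.map (f : L →* M) (chi chevE7 s c) := by
  show (∏ k, Units.map (f : L →* M) (c k) ^ chevE7.cartan k s) = Units.map _ (∏ k, c k ^ chevE7.cartan k s)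
  rw [map_prod]
  exact Finset.prod_congr rfl fun k _ => (map_zpow _ _ _).symm

/-- The group seen in a group over a bigger field. -/
noncomputable def lift {E K : Type*} [Field E] [Field K] (f : E →+* K) :
    ↥(chevE7.group E) →* ↥(chevE7.group K) :=
  ((ReflectionsSpinor.ChevField.push chevE7 f).comp (chevE7.group E).subtype).codRestrict _
    fun z => ReflectionsSpinor.ChevField.push_mem_group cert_E7 _ z.2

theorem lift_injective {E K : Type*} [Field E] [Field K] (f : E →+* K) : Function.Injective (lift f) :=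
  fun _ _ h => Subtype.ext (ReflectionsSpinor.ChevField.push_injective _ (congrArg Subtype.val h))

theorem card_two : ¬ 13 ^ 2 ∣ Nat.card ↥(chevE7.group (ZMod 2)) := by
  have h := cardE7 (F := ZMod 2)
  rw [ZMod.card, show ((2 : ℕ) - 1).gcd 2 = 1 from rfl, one_mul, show chevE7.nroots / 2 = 63 from rfl] at h
  rw [h, Nat.dvd_iff_mod_eq_zero]
  norm_num

/-- Any two subgroups of order thirteen are conjugate. -/
theorem exists_conj_pow {x y : ↥(chevE7.group (ZMod 2))} (hx : orderOf x = 13) (hy : orderOf y = 13) :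
    ∃ (h : ↥(chevE7.group (ZMod 2))) (j : ℕ), h * y * h⁻¹ = x ^ j := by
  haveI : Fact (Nat.Prime 13) := ⟨by norm_num⟩
  have hsyl : ∀ {z : ↥(chevE7.group (ZMod 2))}, orderOf z = 13 →
      ∃ P : Sylow 13 ↥(chevE7.group (ZMod 2)), (P : Subgroup _) = Subgroup.zpowers z := by
    intro z hz
    obtain ⟨P, hP⟩ := (IsPGroup.of_card (p := 13) (n := 1)
      (show Nat.card (Subgroup.zpowers z) = 13 ^ 1 by rw [Nat.card_zpowers, hz, pow_one])).exists_le_sylow
    refine ⟨P, (Subgroup.eq_of_le_of_card_ge hP ?_).symm⟩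
    obtain ⟨n, hn⟩ := IsPGroup.iff_card.1 P.2
    rw [Nat.card_zpowers, hz, hn]
    rcases Nat.lt_or_ge n 2 with h | h
    · exact (Nat.pow_le_pow_right (by norm_num) (show n ≤ 1 by omega)).trans (le_of_eq (pow_one _))
    · exact absurd ((pow_dvd_pow 13 h).trans (hn ▸ Subgroup.card_subgroup_dvd_card (P : Subgroup ↥(chevE7.group (ZMod 2))))) card_two
  obtain ⟨P, hP⟩ := hsyl hx
  obtain ⟨Q, hQ⟩ := hsyl hy
  obtain ⟨g, hg⟩ := MulAction.exists_smul_eq ↥(chevE7.group (ZMod 2)) Q P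
  have h1 : g * y * g⁻¹ ∈ Subgroup.zpowers x := by
    rw [← hP, ← hg, Sylow.coe_subgroup_smul, hQ]
    exact Subgroup.smul_mem_pointwise_smul _ (MulAut.conj g) _ (Subgroup.mem_zpowers y)
  obtain ⟨j, hj⟩ := (mem_powers_iff_mem_zpowers).2 h1
  exact ⟨g, j, hj.symm⟩

/-- `E₇(2)` has no element of order sixty five. -/
theorem no_sixtyfive (z : ↥(chevE7.group (ZMod 2))) : orderOf z ≠ 65 := by
  classical
  intro hz
  have h13 : Nat.Prime 13 := by norm_num
  have h5 : Nat.Prime 5 := by norm_num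
  haveI : NeZero 12 := ⟨by norm_num⟩
  let K := FiniteField.Extension (ZMod 2) 2 12
  letI : Fintype K := Fintype.ofFinite K
  haveI : CharP K 2 := charP_of_injective_algebraMap (algebraMap (ZMod 2) K).injective 2
  have hK : Fintype.card K = 4096 := by
    rw [← Nat.card_eq_fintype_card, FiniteField.natCard_extension, Nat.card_zmod]; norm_num
  obtain ⟨γ, hγ⟩ := IsCyclic.exists_ofOrder_eq_natCard (α := Kˣ)
  rw [Nat.card_eq_fintype_card, Fintype.card_units, hK] at hγ
  set ζ₁ : Kˣ := γ ^ 315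
  have hζ₁ : IsPrimitiveRoot ζ₁ 13 := by
    rw [IsPrimitiveRoot.iff_orderOf, orderOf_pow_of_dvd (by norm_num) (by rw [hγ]; norm_num), hγ]
  set ξ : Kˣ := γ ^ 819
  have hξ : IsPrimitiveRoot ξ 5 := by
    rw [IsPrimitiveRoot.iff_orderOf, orderOf_pow_of_dvd (by norm_num) (by rw [hγ]; norm_num), hγ]
  -- an element of order thirteen of the finite group from the frame
  set Ω := Omega chevE7 (ZMod 2)
  haveI : CharP Ω 2 := charP_of_injective_algebraMap (algebraMap (ZMod 2) Ω).injective 2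
  obtain ⟨ι⟩ : Nonempty (K →ₐ[ZMod 2] Ω) := ⟨IsAlgClosed.lift⟩
  obtain ⟨σ, hσ⟩ := Twist.exists_frobAlg chevE7 (ZMod 2)
  obtain ⟨g, hg, hgn⟩ : ∃ g ∈ chevE7.group Ω, Twist.frobPush chevE7 σ g = g * nW cert_E7 Ω wWord := by
    obtain ⟨g, hg, e⟩ := exists_lang fullE7 (d := 2) two_pos (fun i k => by simpa using invTwo_spec i k)
      (σ := σ.toRingEquiv) hσ (a := nW cert_E7 (ZMod 2) wWord)
      (monomial_le_group cert_E7 (nW_mem_monomial fullE7 wWord))
    rw [ReflectionsSpinor.ChevField.push_nW, inv_mul_eq_iff_eq_mul] at e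
    exact ⟨g, hg, e⟩
  have hfix : ∀ y, σ y = y → ∃ x, algebraMap (ZMod 2) Ω x = y := fun y hy =>
    exists_preimage (by rw [← hσ]; exact hy)
  obtain ⟨η, hA⟩ := acts_nW (F := Ω) fullE7 wWord
  set cΩ : Fin chevE7.rank → Ωˣ := fun k => Units.map ((ι : K →+* Ω) : K →* Ω) (c₀ ζ₁ k) with hcΩ
  obtain ⟨x, hx⟩ := Twist.exists_emb_torus fullE7 torusHom_injective_two hfix hg hgn
    (q := 2) (fun y => by rw [hσ, ZMod.card]) hA (c := cΩ) fun s => by
      rw [hcΩ, chi_map, chi_map, ← map_pow, chi_c₀ hζ₁.pow_eq_one, chi_c₀ hζ₁.pow_eq_one, val_wWord s,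
        ← pow_eq_pow_mod _ hζ₁.pow_eq_one, pow_mul']
  have htor : ∀ (c : Fin chevE7.rank → Kˣ), (∀ k, c k ^ 13 = 1) → c ^ 13 = 1 := fun c h => funext h
  have hx13 : orderOf x = 13 := by
    have h1 : orderOf x = orderOf cΩ := by
      rw [← orderOf_injective _ (Twist.emb_injective (D := chevE7) (F := ZMod 2) (K := Ω)) x, hx]
      exact ((MulAut.conj g).orderOf_eq _).trans (orderOf_injective _ torusHom_injective_two cΩ)
    rw [h1]
    haveI := Fact.mk h13
    refine orderOf_eq_prime (funext fun k => ?_) fun e => ?_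
    · show cΩ k ^ 13 = 1
      rw [hcΩ, ← map_pow, show c₀ ζ₁ k ^ 13 = 1 from by
        rw [c₀, ← pow_mul, mul_comm, pow_mul, hζ₁.pow_eq_one, one_pow], map_one]
    · have e2 := congrFun e (⟨1, by decide⟩ : Fin chevE7.rank)
      rw [hcΩ, Pi.one_apply] at e2
      have e3 := Units.map_injective (f := ((ι : K →+* Ω) : K →* Ω)) ι.injective (e2.trans (map_one _).symm)
      exact hζ₁.pow_ne_one_of_pos_of_lt (l := 12) (by norm_num) (by norm_num) e3
  -- the part of order thirteen inside the finite splitting group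
  set j₁ := lift (algebraMap (ZMod 2) K)
  have hy13 : orderOf (z ^ 5) = 13 := by rw [orderOf_pow_of_dvd (by norm_num) (by rw [hz]; norm_num), hz]
  obtain ⟨h₁, j, hj⟩ := exists_conj_pow hx13 hy13
  set y := j₁ (z ^ 5)
  have hy : orderOf y = 13 := by rw [orderOf_injective _ (lift_injective _), hy13]
  have hcard : ¬ 13 ∣ (torG K).index := by
    intro h
    have h1 := (torG K).card_mul_index
    have h2 := cardE7 (F := K)
    rw [even_card, one_mul] at h2
    rw [card_torG, h2, hK, show chevE7.nroots / 2 = 63 from rfl] at h1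
    have h3 : (4096 - 1) ^ 7 * 13 ∣ 4096 ^ 63 *
        (List.map (fun e => 4096 ^ e - 1) [2, 6, 8, 10, 12, 14, 18]).prod :=
      h1 ▸ Nat.mul_dvd_mul_left _ h
    revert h3
    rw [Nat.dvd_iff_mod_eq_zero]
    norm_num
  obtain ⟨e₁, he₁⟩ := exists_conj_mem h13 (torG K) hcard (y := y) (hy ▸ pow_orderOf_eq_one y)
  obtain ⟨c', hc'⟩ := mem_torG he₁
  have hjne : ¬ 13 ∣ j := by
    rintro ⟨m, rfl⟩
    rw [pow_mul, ← hx13, pow_orderOf_eq_one, one_pow, mul_inv_eq_one, mul_eq_left] at hj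
    rw [hj, orderOf_one] at hy13
    exact absurd hy13 (by norm_num)
  set ζ : Kˣ := ζ₁ ^ j
  have hζ : IsPrimitiveRoot ζ 13 := hζ₁.pow_of_coprime j ((h13.coprime_iff_not_dvd.2 hjne).symm)
  have hc0 : c₀ ζ = c₀ ζ₁ ^ j := funext fun k => by
    exact pow_right_comm ζ₁ j _
  -- transport into the torus of the chosen class
  obtain ⟨e₂, he₂⟩ : ∃ e₂ : ↥(chevE7.group K),
      ((e₂ * y * e₂⁻¹ : ↥(chevE7.group K)) : GL chevE7.Idx K) = torusHom chevE7 K (c₀ ζ) := by
    set P := ReflectionsSpinor.ChevField.push chevE7 (ι : K →+* Ω)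
    have hPt : ∀ c : Fin chevE7.rank → Kˣ,
        P (torusHom chevE7 K c) = torusHom chevE7 Ω fun k => Units.map ((ι : K →+* Ω) : K →* Ω) (c k) :=
      fun c => ReflectionsSpinor.ChevField.push_torus _ c
    have hPj : ∀ w : ↥(chevE7.group (ZMod 2)),
        P ((j₁ w : ↥(chevE7.group K)) : GL chevE7.Idx K) = Twist.emb chevE7 (ZMod 2) Ω w := by
      intro w
      refine Units.ext (Matrix.ext fun a b => ?_)
      show (ι : K →+* Ω) (algebraMap (ZMod 2) K _) = algebraMap (ZMod 2) Ω _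
      exact ι.commutes _
    have hyx : P (y : GL chevE7.Idx K) =
        (Twist.emb chevE7 (ZMod 2) Ω h₁)⁻¹ * (g * torusHom chevE7 Ω (fun k => Units.map ((ι : K →+* Ω) : K →* Ω) (c₀ ζ k)) * g⁻¹) *
          Twist.emb chevE7 (ZMod 2) Ω h₁ := by
      rw [hPj, show z ^ 5 = h₁⁻¹ * x ^ j * h₁ by rw [← hj]; group, map_mul, map_mul, map_inv, map_pow, hx,
        conj_pow, ← map_pow]
      congr 4
      refine congrArg _ (funext fun k => ?_)
      rw [hcΩ, Pi.pow_apply, ← map_pow, hc0, Pi.pow_apply]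
    set M := P (e₁ : GL chevE7.Idx K) * (Twist.emb chevE7 (ZMod 2) Ω h₁)⁻¹ * g with hM
    have hMmem : M ∈ chevE7.group Ω :=
      mul_mem (mul_mem (ReflectionsSpinor.ChevField.push_mem_group cert_E7 _ e₁.2)
        (inv_mem (ReflectionsSpinor.ChevField.push_mem_group cert_E7 _ h₁.2))) hg
    obtain ⟨n, hn, τ, θ, hτ, hchi⟩ := exists_perm_of_intertwine fullE7 hMmem
    have hint := hchi (fun k => Units.map ((ι : K →+* Ω) : K →* Ω) (c₀ ζ k))
      (fun k => Units.map ((ι : K →+* Ω) : K →* Ω) (c' k)) (by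
        rw [← hPt c', hc', Subgroup.coe_mul, Subgroup.coe_mul, InvMemClass.coe_inv, map_mul, map_mul, map_inv, hyx, hM]
        group)
    have hint' : ∀ s : Fin chevE7.nroots, chi chevE7 (τ s) c' = chi chevE7 s (c₀ ζ) := by
      intro s
      have e := hint s
      rw [chi_map, chi_map] at e
      exact Units.map_injective (f := ((ι : K →+* Ω) : K →* Ω)) ι.injective e
    obtain ⟨l, t, ht, rfl⟩ := (mem_monomial_iff fullE7).1 hn
    obtain ⟨d, rfl⟩ : ∃ d, torusHom chevE7 Ω d = t := by rwa [diagonalSubgroup_eq_range fullE7] at ht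
    obtain ⟨θ', hθ'⟩ := acts_nW (F := Ω) fullE7 l
    have hτl : τ = wPerm cert_E7 l := by
      have := hτ.perm_eq (hθ'.mul (acts_torus cert_E7 d))
      rwa [mul_one] at this
    obtain ⟨η₂, hl⟩ := acts_nW (F := K) fullE7 l
    have hmul := Twist.mul_torus_eq hl (c := c₀ ζ) (c' := c') fun s => by rw [← hint' s, hτl]
    refine ⟨⟨nW cert_E7 K l, monomial_le_group cert_E7 (nW_mem_monomial fullE7 l)⟩⁻¹ * e₁, ?_⟩
    rw [Subgroup.coe_mul, Subgroup.coe_mul, InvMemClass.coe_inv, Subgroup.coe_mul, InvMemClass.coe_inv]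
    have e' : (e₁ : GL chevE7.Idx K) * (y : GL chevE7.Idx K) * (e₁ : GL chevE7.Idx K)⁻¹ = torusHom chevE7 K c' := by
      rw [hc']; rfl
    calc (nW cert_E7 K l)⁻¹ * (e₁ : GL chevE7.Idx K) * y * ((nW cert_E7 K l)⁻¹ * (e₁ : GL chevE7.Idx K))⁻¹
        = (nW cert_E7 K l)⁻¹ * ((e₁ : GL chevE7.Idx K) * y * (e₁ : GL chevE7.Idx K)⁻¹) * nW cert_E7 K l := by group
      _ = _ := by rw [e', mul_assoc, ← hmul, inv_mul_cancel_left]
  -- the part of order five
  set y₅ := j₁ (z ^ 13)
  have hy₅ : orderOf y₅ = 5 := by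
    rw [orderOf_injective _ (lift_injective _), orderOf_pow_of_dvd (by norm_num) (by rw [hz]; norm_num), hz]
  have hmem : e₂ * y₅ * e₂⁻¹ ∈ cenT ζ := by
    rw [mem_cenT, ← he₂]
    show _ * _ = _ * _
    rw [← Subgroup.coe_mul, ← Subgroup.coe_mul]
    refine congrArg _ ?_
    have hc : y * y₅ = y₅ * y := by rw [← map_mul, ← map_mul, ← pow_add, ← pow_add, add_comm]
    calc e₂ * y * e₂⁻¹ * (e₂ * y₅ * e₂⁻¹) = e₂ * (y * y₅) * e₂⁻¹ := by group
      _ = e₂ * (y₅ * y) * e₂⁻¹ := by rw [hc]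
      _ = _ := by group
  obtain ⟨e₃, he₃⟩ := exists_conj_mem h5 ((torG K).subgroupOf (cenT ζ))
    (five_not_dvd hζ (by rw [hK]; norm_num)) (y := ⟨_, hmem⟩)
    (Subtype.ext (show (e₂ * y₅ * e₂⁻¹) ^ 5 = 1 by
      rw [conj_pow, ← hy₅, pow_orderOf_eq_one, mul_one, mul_inv_cancel]))
  obtain ⟨c₅, hc₅⟩ := mem_torG (Subgroup.mem_subgroupOf.1 he₃)
  set e := (e₃ : ↥(chevE7.group K)) * e₂ with he
  have ey : ((e * y * e⁻¹ : ↥(chevE7.group K)) : GL chevE7.Idx K) = torusHom chevE7 K (c₀ ζ) := by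
    have h1 := mem_cenT.1 e₃.2
    have : (e * y * e⁻¹ : ↥(chevE7.group K)) = e₃ * (e₂ * y * e₂⁻¹) * (e₃ : ↥(chevE7.group K))⁻¹ := by
      rw [he]; group
    rw [this, Subgroup.coe_mul, Subgroup.coe_mul, he₂, ← h1.eq, InvMemClass.coe_inv, mul_inv_cancel_right]
  have ey₅ : ((e * y₅ * e⁻¹ : ↥(chevE7.group K)) : GL chevE7.Idx K) = torusHom chevE7 K c₅ := by
    rw [hc₅, he]
    simp only [Subgroup.coe_mul, InvMemClass.coe_inv, _root_.mul_inv_rev, mul_assoc]
  -- apply the Frobenius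
  set φ : K →+* K := frobenius K 2
  set Φ := ReflectionsSpinor.ChevField.push chevE7 φ
  have hΦ : ∀ w : ↥(chevE7.group (ZMod 2)),
      Φ ((j₁ w : ↥(chevE7.group K)) : GL chevE7.Idx K) = ((j₁ w : ↥(chevE7.group K)) : GL chevE7.Idx K) := by
    intro w
    refine Units.ext (Matrix.ext fun a b => ?_)
    show φ (algebraMap (ZMod 2) K _) = algebraMap (ZMod 2) K _
    rw [frobenius_def, ← map_pow, ZMod.pow_card]
  have hΦt : ∀ c : Fin chevE7.rank → Kˣ, Φ (torusHom chevE7 K c) = torusHom chevE7 K (c ^ 2) := by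
    intro c
    rw [show Φ (torusHom chevE7 K c) = _ from ReflectionsSpinor.ChevField.push_torus φ c]
    refine congrArg _ (funext fun k => Units.ext ?_)
    show φ _ = _
    rw [frobenius_def, Pi.pow_apply, Units.val_pow_eq_pow_val]
  set m := Φ (e : GL chevE7.Idx K) * (e : GL chevE7.Idx K)⁻¹ with hm
  have hmmem : m ∈ chevE7.group K :=
    mul_mem (ReflectionsSpinor.ChevField.push_mem_group cert_E7 _ e.2) (inv_mem e.2)
  have hrel : ∀ (w : ↥(chevE7.group (ZMod 2))) (c : Fin chevE7.rank → Kˣ),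
      ((e * j₁ w * e⁻¹ : ↥(chevE7.group K)) : GL chevE7.Idx K) = torusHom chevE7 K c →
      m * torusHom chevE7 K c = torusHom chevE7 K (c ^ 2) * m := by
    intro w c hwc
    rw [← hΦt c, ← hwc, Subgroup.coe_mul, Subgroup.coe_mul, InvMemClass.coe_inv, map_mul, map_mul, map_inv, hΦ, hm]
    group
  obtain ⟨n, hn, τ, θ, hτ, hchi⟩ := exists_perm_of_intertwine fullE7 hmmem
  have hval : ∀ s : Fin chevE7.nroots, valT.getD (s : ℕ) 0 = 2 * valT.getD (τ s : ℕ) 0 % 13 := by
    intro s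
    have e1 := hchi _ _ (hrel (z ^ 5) _ ey) s
    rw [map_pow, chi_c₀ hζ.pow_eq_one, chi_c₀ hζ.pow_eq_one, ← pow_mul, mul_comm,
      pow_eq_pow_mod _ hζ.pow_eq_one] at e1
    exact (hζ.pow_inj (Nat.mod_lt _ (by norm_num)) (val_lt s) e1).symm
  obtain ⟨η₃, hW⟩ := acts_nW (F := K) fullE7 wWord
  obtain ⟨k, hk⟩ := exists_stab (hW.mul hτ) (fun s => by
    rw [Equiv.Perm.mul_apply, val_wWord, ← hval])
  have hτ' : ∀ s, τ s = wPerm cert_E7 wWord.reverse (wPerm cert_E7 (sw k) s) := fun s => by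
    apply (wPerm cert_E7 wWord).injective
    rw [wWord_reverse, ← Equiv.Perm.mul_apply, hk]
  -- exponents of the part of order five
  have hc₅5 : c₅ ^ 5 = 1 := torusHom_injective_two (by
    rw [map_pow, map_one, ← ey₅, ← SubmonoidClass.coe_pow, conj_pow, ← hy₅, pow_orderOf_eq_one, mul_one,
      mul_inv_cancel]; rfl)
  have hlog : ∀ i : Fin chevE7.rank, ∃ b : ℕ, chi chevE7 (smp cert_E7 i : Fin chevE7.nroots) c₅ = ξ ^ b := by
    intro i
    have h1 : chi chevE7 (smp cert_E7 i : Fin chevE7.nroots) c₅ ^ 5 = 1 := by rw [← map_pow, hc₅5, map_one]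
    obtain ⟨b, -, hb⟩ := (hξ.map_of_injective (f := Units.coeHom K) Units.val_injective).eq_pow_of_pow_eq_one
      (ξ := ((chi chevE7 (smp cert_E7 i : Fin chevE7.nroots) c₅ : Kˣ) : K))
      (by rw [← Units.val_pow_eq_pow_val, h1, Units.val_one])
    exact ⟨b, Units.ext (by rw [Units.val_pow_eq_pow_val]; exact hb.symm)⟩
  choose b hb using hlog
  have hprod : ∀ (f : Fin chevE7.rank → ℤ), ∏ i, ξ ^ f i = ξ ^ ∑ i, f i := by
    intro f
    generalize Finset.univ (α := Fin chevE7.rank) = S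
    induction S using Finset.induction_on with
    | empty => simp
    | insert a S ha ih => rw [Finset.prod_insert ha, Finset.sum_insert ha, ih, _root_.zpow_add]
  have hchi5 : ∀ s : Fin chevE7.nroots,
      chi chevE7 s c₅ = ξ ^ ∑ i : Fin chevE7.rank, crd auxE7 (i : ℕ) (s : ℕ) * (b i : ℤ) := by
    intro s
    rw [← hprod]
    show (∏ k : Fin chevE7.rank, c₅ k ^ chevE7.cartan k s) = _
    have : ∀ i : Fin chevE7.rank, ξ ^ (crd auxE7 (i : ℕ) (s : ℕ) * (b i : ℤ)) =
        ∏ k : Fin chevE7.rank, c₅ k ^ (crd auxE7 (i : ℕ) (s : ℕ) * chevE7.cartan k (chevE7.simple i)) := by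
      intro i
      rw [mul_comm, _root_.zpow_mul, zpow_natCast, ← hb i]
      show (∏ k : Fin chevE7.rank, c₅ k ^ chevE7.cartan k (chevE7.simple i)) ^ _ = _
      rw [← Finset.prod_zpow]
      exact Finset.prod_congr rfl fun k _ => by rw [← _root_.zpow_mul, mul_comm]
    rw [Finset.prod_congr rfl fun i _ => this i, Finset.prod_comm]
    refine Finset.prod_congr rfl fun k _ => ?_
    rw [cartan_eq_sum fullE7 k s, zpow_sum']
  have heq : ∀ i : Fin chevE7.rank, ((∑ l : Fin chevE7.rank,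
      2 * crd auxE7 (l : ℕ) (τ (smp cert_E7 i) : ℕ) * (b l : ℤ)) - b i) % 5 = 0 := by
    intro i
    have e1 := hchi _ _ (hrel (z ^ 13) _ ey₅) (smp cert_E7 i)
    rw [map_pow, hchi5, hb i] at e1
    rw [← Int.dvd_iff_emod_eq_zero]
    refine (hξ.zpow_eq_one_iff_dvd _).1 ?_
    rw [_root_.zpow_sub, mul_inv_eq_one, zpow_natCast, ← e1, ← zpow_natCast, ← _root_.zpow_mul,
      Finset.sum_mul]
    exact congrArg _ (Finset.sum_congr rfl fun l _ => by push_cast; ring)
  have hzero : ∀ i : Fin 7, ((b i : ℤ)) % 5 = 0 := by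
    intro i
    set L : Fin 7 → ℤ := fun m => ((((leftInv.getD k []).getD i []).getD m 0 : ℕ) : ℤ)
    set M : Fin 7 → Fin 7 → ℤ := fun m j =>
      2 * crd auxE7 (j : ℕ) (τ (smp cert_E7 m) : ℕ) - (if m = j then 1 else 0)
    have h1 : ∀ m : Fin 7, ((∑ j : Fin 7, M m j * (b j : ℤ) : ℤ) : ZMod 5) = 0 := by
      intro m
      rw [ZMod.intCast_zmod_eq_zero_iff_dvd, Nat.cast_ofNat, Int.dvd_iff_emod_eq_zero, ← heq m]
      congr 1
      simp only [M, sub_mul, Finset.sum_sub_distrib, ite_mul, one_mul, zero_mul, Finset.sum_ite_eq,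
        Finset.mem_univ, if_true]
      rfl
    have h2 : ∀ j : Fin 7, ((∑ m : Fin 7, L m * M m j : ℤ) : ZMod 5) = if i = j then 1 else 0 := by
      intro j
      have h3 := leftInv_spec k i j
      simp only [M, hτ', sw]
      have : ((if i = j then 1 else 0 : ℤ) : ZMod 5) = if i = j then 1 else 0 := by split_ifs <;> simp
      rw [← this, ZMod.intCast_eq_intCast_iff', ← h3]
      exact (Int.emod_emod_of_dvd _ dvd_rfl).symm
    have h4 : ((b i : ℤ) : ZMod 5) = 0 := by
      calc ((b i : ℤ) : ZMod 5) = ∑ j : Fin 7, ((∑ m : Fin 7, L m * M m j : ℤ) : ZMod 5) * ((b j : ℤ) : ZMod 5) := by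
            simp only [h2, ite_mul, one_mul, zero_mul, Finset.sum_ite_eq, Finset.mem_univ, if_true]
        _ = ∑ m : Fin 7, (L m : ZMod 5) * ((∑ j : Fin 7, M m j * (b j : ℤ) : ℤ) : ZMod 5) := by
            simp only [Int.cast_sum, Int.cast_mul, Finset.mul_sum, Finset.sum_mul, mul_assoc]
            rw [Finset.sum_comm]
        _ = 0 := by simp only [h1, mul_zero, Finset.sum_const_zero]
    rw [← Int.dvd_iff_emod_eq_zero]
    exact (ZMod.intCast_zmod_eq_zero_iff_dvd _ 5).1 h4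
  have hone : torusHom chevE7 K c₅ = 1 := by
    rw [← map_one (torusHom chevE7 K)]
    refine Twist.torusHom_eq_of_chi fun s => ?_
    rw [hchi5, map_one, hξ.zpow_eq_one_iff_dvd]
    exact Finset.dvd_sum fun i _ => (Int.dvd_of_emod_eq_zero (hzero i)).mul_left _
  rw [hone] at ey₅
  have : e * y₅ * e⁻¹ = 1 := Subtype.ext ey₅
  rw [mul_inv_eq_one, mul_eq_left] at this
  rw [this, orderOf_one] at hy₅
  exact absurd hy₅ (by norm_num)

end CfsgLib.E7Two
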